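import Mathlib
import Cfsg.Agent.Lib.Char.Brauer
import Cfsg.Agent.Lib.MatConj.Charpoly

/-!
Brauer lifting (Green): for a representation of a finite group over an algebraically closed field
and an injective character `θ` of the relevant roots of unity, the sum of the values of `θ` on the
eigenvalues is a generalized character.
-/

set_option autoImplicit false

namespace H64.Cusp

open Polynomial Module Cfsg

universe u v

section lin

variable {K V : Type*} [Field K] [AddCommGroup V] [Module K V] [FiniteDimensional K V]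

open Module.Basis in
theorem charpoly_eq_mul (W : Submodule K V) (e : V →ₗ[K] V) (he : W ≤ W.comap e) :
    e.charpoly = (e.restrict he).charpoly * (W.mapQ W e he).charpoly := by
  classical
  let m := Module.Free.ChooseBasisIndex K W
  let bW : Basis m K W := Module.Free.chooseBasis K W
  let n := Module.Free.ChooseBasisIndex K (V ⧸ W)
  let bQ : Basis n K (V ⧸ W) := Module.Free.chooseBasis K (V ⧸ W)
  let b := sumQuot bW bQ
  let A : Matrix m m K := LinearMap.toMatrix bW bW (e.restrict he)
  let B : Matrix m n K := Matrix.of fun i l ↦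
    ((sumQuot bW bQ).repr (e ((sumQuot bW bQ) (Sum.inr l)))) (Sum.inl i)
  let D : Matrix n n K := LinearMap.toMatrix bQ bQ (W.mapQ W e he)
  suffices LinearMap.toMatrix b b e = Matrix.fromBlocks A B 0 D by
    rw [← LinearMap.charpoly_toMatrix e b, this, ← LinearMap.charpoly_toMatrix _ bW,
      ← LinearMap.charpoly_toMatrix _ bQ, Matrix.charpoly_fromBlocks_zero₂₁]
  ext u v
  cases u with
  | inl i =>
    cases v with
    | inl k =>
      simp only [b, sumQuot_inl, Matrix.fromBlocks_apply₁₁, A, LinearMap.toMatrix_apply]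
      apply sumQuot_repr_inl_of_mem
    | inr l => simp [b, LinearMap.toMatrix_apply, Matrix.fromBlocks_apply₁₂, B]
  | inr j =>
    cases v with
    | inl k =>
      suffices W.mkQ (e (bW k)) = 0 by simp [LinearMap.toMatrix_apply, b, this]
      rw [← LinearMap.mem_ker, Submodule.ker_mkQ]
      exact he (Submodule.coe_mem (bW k))
    | inr l =>
      simp only [LinearMap.toMatrix_apply, sumQuot_repr_inr,
        Matrix.fromBlocks_apply₂₂, b, D]
      rw [← sumQuot_inr bW bQ l, W.mapQ_apply]
      simp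

theorem charpoly_eq_prod {ι : Type*} [Fintype ι] [DecidableEq ι] {N : ι → Submodule K V}
    (h : DirectSum.IsInternal N) {f : V →ₗ[K] V} (hf : ∀ i, Set.MapsTo f (N i) (N i)) :
    f.charpoly = ∏ i, (f.restrict (hf i)).charpoly := by
  classical
  let b : (i : ι) → Basis _ K (N i) := fun i ↦ Module.Free.chooseBasis K (N i)
  rw [← LinearMap.charpoly_toMatrix f (h.collectedBasis b),
    LinearMap.toMatrix_directSum_collectedBasis_eq_blockDiagonal' h h b b hf,
    H65.charpoly_blockDiagonal']
  simp only [LinearMap.charpoly_toMatrix]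

theorem charpoly_eq_of_equiv {V' : Type*} [AddCommGroup V'] [Module K V'] [FiniteDimensional K V']
    (e : V ≃ₗ[K] V') {f : V →ₗ[K] V} {f' : V' →ₗ[K] V'} (h : ∀ x, e (f x) = f' (e x)) :
    f.charpoly = f'.charpoly := by
  rw [← e.charpoly_conj f]
  congr 1
  ext x
  simp [LinearEquiv.conj_apply, h]

theorem roots_charpoly_smul {c : K} (hc : c ≠ 0) (f : V →ₗ[K] V) :
    (c • f).charpoly.roots = f.charpoly.roots.map (c * ·) := by
  classical
  ext μ
  obtain ⟨ν, rfl⟩ : ∃ ν, μ = c * ν := ⟨c⁻¹ * μ, by field_simp⟩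
  rw [Multiset.count_map_eq_count' _ _ (mul_right_injective₀ hc), count_roots, count_roots,
    ← LinearMap.finrank_maxGenEigenspace_eq, ← LinearMap.finrank_maxGenEigenspace_eq]
  suffices h : Module.End.maxGenEigenspace (c • f) (c * ν) = Module.End.maxGenEigenspace f ν by
    rw [h]
  ext x
  simp only [Module.End.mem_maxGenEigenspace]
  refine exists_congr fun k => ?_
  have : c • f - (c * ν) • (1 : Module.End K V) = c • (f - ν • 1) := by
    rw [smul_sub, smul_smul]
  rw [this, _root_.smul_pow, LinearMap.smul_apply, smul_eq_zero, or_iff_right (pow_ne_zero _ hc)]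

theorem pow_eq_one_of_root {f : Module.End K V} {N : ℕ} (hf : f ^ N = 1) {μ : K}
    (h : μ ∈ f.charpoly.roots) : μ ^ N = 1 := by
  obtain ⟨x, hx⟩ := ((Module.End.hasEigenvalue_iff_isRoot_charpoly f μ).2
    (isRoot_of_mem_roots h)).exists_hasEigenvector
  have h1 := hx.pow_apply N
  rw [hf, Module.End.one_apply] at h1
  exact smul_left_injective K hx.2 (by simpa using h1.symm)

/-- The sum of the values of `θ` on the roots. -/
noncomputable def rs (θ : K → ℂ) (h : K[X]) : ℂ := (h.roots.map θ).sum

theorem rs_mul (θ : K → ℂ) {g h : K[X]} (hg : g ≠ 0) (hh : h ≠ 0) :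
    rs θ (g * h) = rs θ g + rs θ h := by
  rw [rs, roots_mul (mul_ne_zero hg hh), Multiset.map_add, Multiset.sum_add, rs, rs]

theorem rs_one (θ : K → ℂ) : rs θ 1 = 0 := by simp [rs]

theorem rs_prod (θ : K → ℂ) {ι : Type*} (s : Finset ι) {g : ι → K[X]} (hg : ∀ i, g i ≠ 0) :
    rs θ (∏ i ∈ s, g i) = ∑ i ∈ s, rs θ (g i) := by
  classical
  induction s using Finset.induction_on with
  | empty => simp [rs_one]
  | insert a s ha ih =>
    rw [Finset.prod_insert ha, Finset.sum_insert ha,
      rs_mul θ (hg a) (Finset.prod_ne_zero_iff.mpr fun i _ => hg i), ih]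

end lin

/-- An injective character of the `N`-th roots of unity. -/
structure Th (K : Type*) [Field K] (N : ℕ) where
  θ : K → ℂ
  mul : ∀ a b, a ^ N = 1 → b ^ N = 1 → θ (a * b) = θ a * θ b
  one : θ 1 = 1
  inj : ∀ a, a ^ N = 1 → θ a = 1 → a = 1

theorem Th.rs_smul {K V : Type*} [Field K] [AddCommGroup V] [Module K V] [FiniteDimensional K V]
    {N : ℕ} (t : Th K N) {c : K} (hc0 : c ≠ 0) (hc : c ^ N = 1) {f : Module.End K V}
    (hf : f ^ N = 1) : rs t.θ (c • f).charpoly = t.θ c * rs t.θ f.charpoly := by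
  rw [rs, rs, roots_charpoly_smul hc0, Multiset.map_map, ← Multiset.sum_map_mul_left]
  exact congrArg _ (Multiset.map_congr rfl fun μ hμ => t.mul _ _ hc (pow_eq_one_of_root hf hμ))

theorem lift_nilp {K : Type*} [Field K] [IsAlgClosed K] {N : ℕ} (t : Th K N) (n : ℕ) :
    ∀ (E : Type u) [Group E] [Finite E] [Group.IsNilpotent E] (V : Type v) [AddCommGroup V]
      [Module K V] [FiniteDimensional K V] (ρ : Representation K E V), (∀ g : E, g ^ N = 1) →
      finrank K V = n → IsGeneralizedCharacter E fun g => rs t.θ (ρ g).charpoly := by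
  classical
  induction n using Nat.strong_induction_on with
  | _ n ih =>
  intro E _ _ _ V _ _ _ ρ hN hn
  have hρN : ∀ g, ρ g ^ N = 1 := fun g => by rw [← map_pow, hN, map_one]
  by_cases hred : ∃ W : Submodule K V, W ≠ ⊥ ∧ W ≠ ⊤ ∧ ∀ g, W ≤ W.comap (ρ g)
  · obtain ⟨W, h0, h1, hW⟩ := hred
    have a1 := ih _ (hn ▸ Submodule.finrank_lt h1) E W (ρ.subrepresentation W hW) hN rfl
    have a2 := ih (finrank K (V ⧸ W)) (by
      have := W.finrank_quotient_add_finrank
      have h2 : finrank K W ≠ 0 := by rwa [Ne, Submodule.finrank_eq_zero]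
      omega) E (V ⧸ W) (ρ.quotient W hW) hN rfl
    convert H6.isGen_add a1 a2 using 1
    funext g
    rw [charpoly_eq_mul W (ρ g) (hW g), rs_mul _ (LinearMap.charpoly_monic _).ne_zero
      (LinearMap.charpoly_monic _).ne_zero]
    rfl
  have hs : ∀ W : Submodule K V, W ≠ ⊥ → (∀ g, W ≤ W.comap (ρ g)) → W = ⊤ := fun W h0 hW => by
    by_contra h1
    exact hred ⟨W, h0, h1, hW⟩
  rcases subsingleton_or_nontrivial V with hV | hV
  · have : (fun g => rs t.θ (ρ g).charpoly) = 0 := funext fun g => by
      have h1 := LinearMap.charpoly_natDegree (ρ g)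
      rw [finrank_zero_of_subsingleton] at h1
      rw [(LinearMap.charpoly_monic _).natDegree_eq_zero.1 h1, rs_one]; rfl
    rw [this]; exact H6.isGen_zero
  have hne : ∀ g, ρ g ≠ 0 := fun g h => by
    have : ρ g * ρ g⁻¹ = 1 := by rw [← map_mul, mul_inv_cancel, map_one]
    rw [h, zero_mul] at this
    exact zero_ne_one this
  let Z : Subgroup E :=
    { carrier := {g | ∃ c : K, ρ g = c • (1 : Module.End K V)}
      mul_mem' := by
        rintro a b ⟨c, hc⟩ ⟨d, hd⟩
        exact ⟨c * d, by rw [map_mul, hc, hd, smul_mul_smul_comm, mul_one]⟩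
      one_mem' := ⟨1, by simp⟩
      inv_mem' := by
        rintro a ⟨c, hc⟩
        have h0 : c ≠ 0 := by rintro rfl; exact hne a (by simpa using hc)
        have : ρ a * ρ a⁻¹ = 1 := by rw [← map_mul, mul_inv_cancel, map_one]
        rw [hc, smul_mul_assoc, one_mul] at this
        exact ⟨c⁻¹, by rw [← this, smul_smul, inv_mul_cancel₀ h0, one_smul]⟩ }
  have hZ : ∀ g, g ∈ Z ↔ ∃ c : K, ρ g = c • (1 : Module.End K V) := fun g => Iff.rfl
  have hZn : Z.Normal := ⟨by
    rintro a ⟨c, hc⟩ g
    exact ⟨c, by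
      rw [map_mul, map_mul, hc, mul_smul_comm, mul_one, smul_mul_assoc, ← map_mul, mul_inv_cancel,
        map_one]⟩⟩
  by_cases hZt : Z = ⊤
  · choose c hc using fun g => (hZ g).1 (hZt ▸ Subgroup.mem_top g)
    have hinj := smul_left_injective K (one_ne_zero (α := Module.End K V))
    have h1 : c 1 = 1 := hinj (by simp [← hc])
    have h2 : ∀ a b, c (a * b) = c a * c b := fun a b => hinj (by
      simp only
      rw [← hc, map_mul, hc, hc, smul_mul_smul_comm, mul_one])
    have h3 : ∀ a, c a ^ N = 1 := fun a => hinj (by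
      have := hρN a
      rw [hc, _root_.smul_pow, one_pow] at this
      simpa using this)
    have h4 : ∀ a, c a ≠ 0 := fun a h => hne a (by rw [hc, h, zero_smul])
    let lam : E →* ℂ := ⟨⟨fun g => t.θ (c g), by rw [h1, t.one]⟩,
      fun a b => by simp only [h2, t.mul _ _ (h3 a) (h3 b)]⟩
    convert H6.isGen_nsmul n (H6.char_isGen (H7.isCharacter_monoidHom lam)) using 1
    funext g
    rw [hc, t.rs_smul (h4 g) (h3 g) (one_pow _), LinearMap.charpoly_one, hn, rs, ← C_1,
      roots_pow, roots_X_sub_C]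
    simp [t.one, lam, mul_comm, Multiset.nsmul_singleton]
  have : Nontrivial (E ⧸ Z) := by
    rw [QuotientGroup.nontrivial_iff]; exact hZt
  obtain ⟨⟨xb, hxb⟩, hx1⟩ := Subgroup.ne_bot_iff_exists_ne_one.1
    (Group.IsNilpotent.center_ne_bot (G := E ⧸ Z))
  obtain ⟨x, rfl⟩ := QuotientGroup.mk_surjective xb
  have hxZ : x ∉ Z := fun h => hx1 (Subtype.ext ((QuotientGroup.eq_one_iff x).2 h))
  have hcomm : ∀ g, ∃ c : K, ρ x * ρ g = c • (ρ g * ρ x) := by
    intro g
    have h1 : x * g * (g * x)⁻¹ ∈ Z := by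
      rw [← QuotientGroup.eq_one_iff, QuotientGroup.mk_mul, QuotientGroup.mk_inv,
        QuotientGroup.mk_mul, QuotientGroup.mk_mul, Subgroup.mem_center_iff.1 hxb,
        mul_inv_cancel]
    obtain ⟨c, hc⟩ := h1
    refine ⟨c, ?_⟩
    rw [← map_mul, ← map_mul, ← one_mul (ρ (g * x)), ← smul_mul_assoc, ← hc, ← map_mul]
    congr 1
    group
  choose c hc using hcomm
  have hinj : ∀ g (a b : K), a • (ρ g * ρ x) = b • (ρ g * ρ x) → a = b := fun g a b h =>
    smul_left_injective K (by rw [← map_mul]; exact hne _) h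
  let ε0 : E →* K := ⟨⟨c, hinj 1 _ _ (by rw [← hc]; simp)⟩, fun a b => hinj (a * b) _ _ (by
    simp only
    rw [← hc, map_mul, ← mul_assoc, hc, smul_mul_assoc, mul_assoc, hc, mul_smul_comm, smul_smul,
      mul_assoc])⟩
  let ε : E →* Kˣ := ε0.toHomUnits
  have hε : ∀ g, (ε g : K) = c g := fun g => rfl
  let H : Subgroup E := ε.ker
  obtain ⟨μ, hμ⟩ := Module.End.exists_eigenvalue (ρ x)
  have hμ0 : μ ≠ 0 := by
    rintro rfl
    obtain ⟨y, hy⟩ := hμ.exists_hasEigenvector
    have h1 := hy.apply_eq_smul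
    have h2 : ρ x⁻¹ (ρ x y) = y := by
      rw [← Module.End.mul_apply, ← map_mul, inv_mul_cancel, map_one, Module.End.one_apply]
    rw [h1, zero_smul, map_zero] at h2
    exact hy.2 h2.symm
  have hmap : ∀ g (ν : K) (y : V), y ∈ Module.End.eigenspace (ρ x) ν →
      ρ g y ∈ Module.End.eigenspace (ρ x) (ε g * ν) := by
    intro g ν y hy
    rw [Module.End.mem_eigenspace_iff] at hy ⊢
    rw [← Module.End.mul_apply, hc, LinearMap.smul_apply, Module.End.mul_apply, hy, map_smul,
      smul_smul, hε]
  have hH : ∀ {g}, g ∈ H → ∀ (ν : K), Set.MapsTo (ρ g) (Module.End.eigenspace (ρ x) ν)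
      (Module.End.eigenspace (ρ x) ν) := by
    intro g hg ν y hy
    have := hmap g ν y hy
    rwa [MonoidHom.mem_ker.1 hg, Units.val_one, one_mul] at this
  let Vq : E ⧸ H → Submodule K V := fun q => Module.End.eigenspace (ρ x) (ε q.out * μ)
  have hout : ∀ g : E, ε (QuotientGroup.mk g : E ⧸ H).out = ε g := by
    intro g
    obtain ⟨h, hh⟩ := QuotientGroup.mk_out_eq_mul H g
    rw [hh, map_mul, MonoidHom.mem_ker.1 h.2, mul_one]
  have hint : DirectSum.IsInternal Vq := by
    refine DirectSum.isInternal_submodule_of_iSupIndep_of_iSup_eq_top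
      ((Module.End.eigenspaces_iSupIndep (ρ x)).comp (f := fun q : E ⧸ H => ε q.out * μ)
        fun a b hab => ?_) (hs _ (fun h => ?_) fun g => iSup_le fun q y hy => ?_)
    · have h1 : ε a.out = ε b.out := Units.ext (mul_right_cancel₀ hμ0 hab)
      rw [← a.out_eq', ← b.out_eq', QuotientGroup.eq, MonoidHom.mem_ker, map_mul, map_inv, h1,
        inv_mul_cancel]
    · have h1 := iSup_eq_bot.1 h (QuotientGroup.mk 1)
      simp only [Vq, hout, map_one, Units.val_one, one_mul] at h1
      exact hμ h1
    · refine Submodule.mem_iSup_of_mem (QuotientGroup.mk (g * q.out)) ?_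
      have := hmap g _ y hy
      simp only [Vq, hout, map_mul, Units.val_mul, mul_assoc]
      exact this
  have hV0 : Module.End.eigenspace (ρ x) μ ≠ ⊤ := fun h => hxZ ⟨μ, LinearMap.ext fun y =>
    Module.End.mem_eigenspace_iff.1 (h ▸ Submodule.mem_top)⟩
  have a1 := ih _ (hn ▸ Submodule.finrank_lt hV0) H _
    (Representation.subrepresentation (ρ.comp H.subtype) (Module.End.eigenspace (ρ x) μ)
      fun g => hH g.2 μ) (fun g => Subtype.ext (hN g)) rfl
  have := Fintype.ofFinite E
  have := Fintype.ofFinite (E ⧸ H)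
  convert H7.isGeneralizedCharacter_indFun H a1 using 1
  funext g
  by_cases hg : g ∈ H
  · rw [H7.indFun_eq_sum_quotient H (H6.gen_isClassFunction a1),
      charpoly_eq_prod hint (fun q => hH hg _), rs_prod _ _ fun q => (LinearMap.charpoly_monic _).ne_zero]
    refine Finset.sum_congr rfl fun q _ => ?_
    have h1 : q.out⁻¹ * g * q.out ∈ H := by
      simpa using (inferInstance : H.Normal).conj_mem g hg q.out⁻¹
    rw [H7.extendByZero_of_mem H _ h1]
    congr 1
    let e : Vq q ≃ₗ[K] Module.End.eigenspace (ρ x) μ := LinearEquiv.ofLinear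
      ((ρ q.out⁻¹).restrict fun y hy => by
        have := hmap q.out⁻¹ _ y hy
        rwa [← mul_assoc, ← Units.val_mul, ← map_mul, inv_mul_cancel, map_one, Units.val_one,
          one_mul] at this)
      ((ρ q.out).restrict fun y hy => hmap _ _ y hy)
      (LinearMap.ext fun y => Subtype.ext (by
        change ρ q.out⁻¹ (ρ q.out y) = y
        rw [← Module.End.mul_apply, ← map_mul, inv_mul_cancel, map_one, Module.End.one_apply]))
      (LinearMap.ext fun y => Subtype.ext (by
        change ρ q.out (ρ q.out⁻¹ y) = y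
        rw [← Module.End.mul_apply, ← map_mul, mul_inv_cancel, map_one, Module.End.one_apply]))
    refine charpoly_eq_of_equiv e fun y => Subtype.ext ?_
    change ρ q.out⁻¹ (ρ g y) = ρ (q.out⁻¹ * g * q.out) (ρ q.out⁻¹ y)
    rw [← Module.End.mul_apply, ← Module.End.mul_apply, ← map_mul, ← map_mul]
    congr 2
    group
  · rw [H7.indFun_eq_zero_of_not_mem_normal H H le_rfl _ hg]
    have h1 : (ε g : K) ^ N = 1 := by
      rw [← Units.val_pow_eq_pow_val, ← map_pow, hN, map_one, Units.val_one]
    have h2 := t.rs_smul (ε g).ne_zero h1 (hρN g)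
    have h3 : (ρ g).charpoly = ((ε g : K) • ρ g).charpoly := by
      refine charpoly_eq_of_equiv (LinearEquiv.ofLinear (ρ x) (ρ x⁻¹) ?_ ?_) fun y => ?_
      · rw [← Module.End.mul_eq_comp, ← map_mul, mul_inv_cancel, map_one]; rfl
      · rw [← Module.End.mul_eq_comp, ← map_mul, inv_mul_cancel, map_one]; rfl
      · exact LinearMap.congr_fun (hc g) y
    rw [← h3] at h2
    have h4 : t.θ (ε g) ≠ 1 := fun h => hg (MonoidHom.mem_ker.2 (Units.ext (t.inj _ h1 h)))
    by_contra h0
    exact h4 (mul_right_cancel₀ h0 (h2.symm.trans (one_mul _).symm))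

/-- Brauer lifting. -/
theorem lift {K : Type*} [Field K] [IsAlgClosed K] {N : ℕ} (t : Th K N) {G : Type*} [Group G]
    [Finite G] {V : Type*} [AddCommGroup V] [Module K V] [FiniteDimensional K V]
    (ρ : Representation K G V) (hN : ∀ g : G, g ^ N = 1) :
    IsGeneralizedCharacter G fun g => rs t.θ (ρ g).charpoly := by
  refine H8.brauer_characterization (fun g h => ?_) fun E p hp hE => ?_
  · congr 1
    symm
    refine charpoly_eq_of_equiv (LinearEquiv.ofLinear (ρ h) (ρ h⁻¹) ?_ ?_) fun y => ?_
    · rw [← Module.End.mul_eq_comp, ← map_mul, mul_inv_cancel, map_one]; rfl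
    · rw [← Module.End.mul_eq_comp, ← map_mul, inv_mul_cancel, map_one]; rfl
    · change ρ h (ρ g y) = ρ (h * g * h⁻¹) (ρ h y)
      rw [← Module.End.mul_apply, ← Module.End.mul_apply, ← map_mul, ← map_mul]
      congr 2
      group
  · have := H8.isNilpotent_of_isElementary hp hE
    exact lift_nilp t _ E V (ρ.comp E.subtype) (fun g => Subtype.ext (hN g)) rfl

/-- Brauer lifting for a representation over a subfield. -/
theorem lift' {F K : Type*} [Field F] [Field K] [Algebra F K] [IsAlgClosed K] {N : ℕ} (t : Th K N)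
    {G : Type*} [Group G] [Finite G] {V : Type*} [AddCommGroup V] [Module F V]
    [FiniteDimensional F V] (ρ : Representation F G V) (hN : ∀ g : G, g ^ N = 1) :
    IsGeneralizedCharacter G fun g => rs t.θ ((ρ g).charpoly.map (algebraMap F K)) := by
  have := lift t ((Module.End.baseChangeHom F K V).toMonoidHom.comp ρ) hN
  convert this using 3
  exact (LinearMap.charpoly_baseChange _ K).symm

end H64.Cusp
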